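import Mathlib.GroupTheory.Sylow
import Mathlib.GroupTheory.Solvable

/-!
# S4933, weights: embeddings of `p`-groups (helper553)

`PE p G H` : every finite `p`-group which embeds in `G` embeds in `H`.

* `PE.of_injective`, `PE.trans`, `PE.of_equiv`;
* `PE.of_card` : `G ≤ H` with the same `p`-part : `PE p H G`;
* `PE.of_quot`, `PE.of_quot'` : `G → S` surjective with kernel of order prime to `p`.
-/

set_option autoImplicit false

open Subgroup

namespace Cfsg.Agent.H553.HT

universe u v w

/-- every `p`-group which embeds in `G` embeds in `H` -/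
def PE (p : ℕ) (G : Type u) [Group G] (H : Type v) [Group H] : Prop :=
  ∀ (Q : Type) [Group Q] [Finite Q], IsPGroup p Q → (∃ f : Q →* G, Function.Injective f) →
    ∃ g : Q →* H, Function.Injective g

variable {p : ℕ} {G : Type u} [Group G] {H : Type v} [Group H] {K : Type w} [Group K]

theorem PE.of_injective (f : G →* H) (hf : Function.Injective f) : PE p G H := by
  rintro Q _ _ _ ⟨g, hg⟩
  exact ⟨f.comp g, hf.comp hg⟩

theorem PE.of_equiv (e : G ≃* H) : PE p G H := PE.of_injective e.toMonoidHom e.injective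

theorem PE.refl : PE p G G := fun _ _ _ _ h => h

theorem PE.trans (h1 : PE p G H) (h2 : PE p H K) : PE p G K := fun Q _ _ hQ hf => h2 Q hQ (h1 Q hQ hf)

variable [hp : Fact p.Prime]

/-- a `p`-group embedded in `H` embeds in every Sylow subgroup of `H` -/
theorem exists_sylow_hom [Finite H] (P : Sylow p H) {Q : Type w} [Group Q] (hQ : IsPGroup p Q) {f : Q →* H}
    (hf : Function.Injective f) : ∃ i : Q →* (P : Subgroup H), Function.Injective i := by
  have h1 : IsPGroup p f.range := hQ.of_surjective f.rangeRestrict f.rangeRestrict_surjective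
  obtain ⟨P', hP'⟩ := h1.exists_le_sylow
  obtain ⟨g, hg⟩ := MulAction.exists_smul_eq H P' P
  have h2 : ∀ x : Q, g * f x * g⁻¹ ∈ (P : Subgroup H) := by
    intro x
    rw [← hg]
    have h3 : f x ∈ P' := hP' ⟨x, rfl⟩
    have h4 := Subgroup.smul_mem_pointwise_smul (f x) (MulAut.conj g) (P' : Subgroup H) h3
    rwa [MulAut.smul_def, MulAut.conj_apply] at h4
  refine ⟨{ toFun := fun x => ⟨g * f x * g⁻¹, h2 x⟩
            map_one' := Subtype.ext (by simp)
            map_mul' := fun x y => Subtype.ext (by
              simp only [map_mul, Subgroup.coe_mul]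
              group) }, ?_⟩
  intro x y hxy
  have h5 : g * f x * g⁻¹ = g * f y * g⁻¹ := congrArg Subtype.val hxy
  exact hf (mul_left_cancel (mul_right_cancel h5))

/-- **`G ≤ H` with the same `p`-part** -/
theorem PE.of_card [Finite H] (f : G →* H) (hf : Function.Injective f)
    (hc : (Nat.card G).factorization p = (Nat.card H).factorization p) : PE p H G := by
  rintro Q _ _ hQ ⟨g, hg⟩
  have : Finite G := Finite.of_injective f hf
  obtain ⟨P⟩ : Nonempty (Sylow p G) := inferInstance
  let e0 := (P : Subgroup G).equivMapOfInjective f hf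
  let R : Sylow p H := Sylow.ofCard ((P : Subgroup G).map f) (by
    rw [← hc, ← Sylow.card_eq_multiplicity P]
    exact Nat.card_congr e0.toEquiv.symm)
  obtain ⟨i, hi⟩ := exists_sylow_hom R hQ hg
  exact ⟨(P : Subgroup G).subtype.comp (e0.symm.toMonoidHom.comp i),
    (P : Subgroup G).subtype_injective.comp (e0.symm.injective.comp hi)⟩

/-- a quotient by a subgroup of order prime to `p` -/
theorem PE.of_quot [Finite G] (f : G →* H) (hker : ¬ p ∣ Nat.card f.ker) : PE p G H := by
  rintro Q _ _ hQ ⟨g, hg⟩
  refine ⟨f.comp g, (injective_iff_map_eq_one _).2 fun x hx => ?_⟩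
  have h1 : g x ∈ f.ker := hx
  have h2 : orderOf (g x) ∣ Nat.card f.ker := by
    have := orderOf_dvd_natCard (⟨g x, h1⟩ : f.ker)
    rwa [Subgroup.orderOf_mk] at this
  rw [orderOf_injective g hg] at h2
  obtain ⟨k, hk⟩ := hQ x
  have h3 : orderOf x ∣ p ^ k := orderOf_dvd_of_pow_eq_one hk
  obtain ⟨j, -, hj⟩ := (Nat.dvd_prime_pow hp.out).1 h3
  rw [hj] at h2
  rcases Nat.eq_zero_or_pos j with h4 | h4
  · rwa [h4, pow_zero, orderOf_eq_one_iff] at hj
  · exact absurd ((dvd_pow_self p h4.ne').trans h2) hker

/-- a quotient by a subgroup of order prime to `p` -/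
theorem PE.of_quot' [Finite G] (f : G →* H) (hf : Function.Surjective f) (hker : ¬ p ∣ Nat.card f.ker) : PE p H G := by
  rintro Q _ _ hQ ⟨g, hg⟩
  have : Finite H := Finite.of_surjective f hf
  obtain ⟨P⟩ : Nonempty (Sylow p G) := inferInstance
  have hinj : Function.Injective (f.comp (P : Subgroup G).subtype) := by
    refine (injective_iff_map_eq_one _).2 fun x hx => ?_
    have h1 : (x : G) ∈ f.ker := hx
    have h2 : orderOf (x : G) ∣ Nat.card f.ker := by
      have := orderOf_dvd_natCard (⟨(x : G), h1⟩ : f.ker)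
      rwa [Subgroup.orderOf_mk] at this
    rw [Subgroup.orderOf_coe] at h2
    obtain ⟨k, hk⟩ := P.2 x
    have h3 : orderOf x ∣ p ^ k := orderOf_dvd_of_pow_eq_one hk
    obtain ⟨j, -, hj⟩ := (Nat.dvd_prime_pow hp.out).1 h3
    rw [hj] at h2
    rcases Nat.eq_zero_or_pos j with h4 | h4
    · rwa [h4, pow_zero, orderOf_eq_one_iff] at hj
    · exact absurd ((dvd_pow_self p h4.ne').trans h2) hker
  let e0 : (P : Subgroup G) ≃* (f.comp (P : Subgroup G).subtype).range := MonoidHom.ofInjective hinj
  have hfac : (Nat.card H).factorization p = (Nat.card G).factorization p := by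
    have h1 : Nat.card G = Nat.card f.ker * Nat.card H := by
      rw [← Nat.card_congr (QuotientGroup.quotientKerEquivOfSurjective f hf).toEquiv, mul_comm]
      exact (card_eq_card_quotient_mul_card_subgroup f.ker)
    rw [h1, Nat.factorization_mul Nat.card_pos.ne' Nat.card_pos.ne', Finsupp.add_apply,
      Nat.factorization_eq_zero_of_not_dvd hker, zero_add]
  let R : Sylow p H := Sylow.ofCard (f.comp (P : Subgroup G).subtype).range (by
    rw [hfac, ← Sylow.card_eq_multiplicity P]
    exact Nat.card_congr e0.toEquiv.symm)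
  obtain ⟨i, hi⟩ := exists_sylow_hom R hQ hg
  exact ⟨(P : Subgroup G).subtype.comp (e0.symm.toMonoidHom.comp i),
    (P : Subgroup G).subtype_injective.comp (e0.symm.injective.comp hi)⟩

end Cfsg.Agent.H553.HT
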